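import Mathlib

/-!
Two primes at distance at least three between `n` and `2 * n`.
-/

set_option autoImplicit false

namespace CfsgLib.AltTwoPrimes

open Nat

theorem two_pow_quarter : ∀ k : ℕ, 12 ≤ k → (4 * k + 4) ^ 2 ≤ 2 ^ k := by
  intro k hk
  induction k, hk using Nat.le_induction with
  | base => norm_num
  | succ k hk ih =>
    have : (4 * (k + 1) + 4) ^ 2 ≤ 2 * (4 * k + 4) ^ 2 := by nlinarith
    rw [pow_succ 2 k]
    omega

theorem main_inequality {n : ℕ} (hn : 1152 ≤ n) :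
    n * ((2 * n) ^ (sqrt (2 * n) + 2) * 4 ^ (2 * n / 3)) ≤ 4 ^ n := by
  set s := sqrt (2 * n) with hs
  have hs48 : 48 ≤ s := Nat.le_sqrt'.2 (by norm_num; omega)
  have h1 : 2 * n ≤ 2 ^ (s / 4) := by
    have h2 := Nat.lt_succ_sqrt' (2 * n)
    rw [← hs] at h2
    have h3 := two_pow_quarter (s / 4) (by omega)
    have h4 : (s + 1) ^ 2 ≤ (4 * (s / 4) + 4) ^ 2 := Nat.pow_le_pow_left (by omega) 2
    rw [Nat.succ_eq_add_one] at h2
    omega
  have h5 : n ≤ 2 ^ (s / 4) := by omega
  calc n * ((2 * n) ^ (s + 2) * 4 ^ (2 * n / 3))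
      ≤ 2 ^ (s / 4) * ((2 ^ (s / 4)) ^ (s + 2) * 4 ^ (2 * n / 3)) :=
        Nat.mul_le_mul h5 (Nat.mul_le_mul_right _ (Nat.pow_le_pow_left h1 _))
    _ = 2 ^ (s / 4 + (s / 4 * (s + 2) + 2 * (2 * n / 3))) := by
        rw [← pow_mul, show (4 : ℕ) = 2 ^ 2 by norm_num, ← pow_mul, ← pow_add, ← pow_add]
    _ ≤ 2 ^ (2 * n) := by
        refine Nat.pow_le_pow_right two_pos ?_
        have h6 : s * s ≤ 2 * n := Nat.sqrt_le (2 * n)
        have h7 : 4 * (s / 4) ≤ s := Nat.mul_div_le s 4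
        have h8 : 4 * (s / 4 * (s + 2)) ≤ s * (s + 2) := by
          rw [← mul_assoc]; exact Nat.mul_le_mul_right _ h7
        have h9 : 3 * (2 * n / 3) ≤ 2 * n := Nat.mul_div_le (2 * n) 3
        have h10 : 48 * s ≤ s * s := Nat.mul_le_mul_right _ hs48
        have h12 : s * (s + 2) = s * s + 2 * s := by ring
        omega
    _ = 4 ^ n := by rw [pow_mul]; norm_num

theorem centralBinom_le (n : ℕ) (hn : 2 < n) (S : Finset ℕ) (hS : ∀ p, p.Prime → n < p → p ≤ 2 * n → p ∈ S)
    (hS' : ∀ p ∈ S, n < p) :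
    centralBinom n ≤ (2 * n) ^ (sqrt (2 * n) + S.card) * 4 ^ (2 * n / 3) := by
  classical
  let f x := x ^ n.centralBinom.factorization x
  let T := {p ∈ Finset.range (2 * n / 3 + 1) | Nat.Prime p}
  have hsupp : ∀ p ∈ Finset.range (2 * n + 1), p ∉ T ∪ S → f p = 1 := by
    intro p hp hnot
    rw [Finset.mem_range, Nat.lt_succ_iff] at hp
    rw [Finset.mem_union, not_or] at hnot
    by_cases hpp : p.Prime
    · have h1 : ¬ p ≤ 2 * n / 3 := fun h => hnot.1 (Finset.mem_filter.2 ⟨Finset.mem_range.2 (by omega), hpp⟩)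
      have h2 : p ≤ n := not_lt.1 fun h => hnot.2 (hS p hpp h hp)
      simp only [f]
      rw [factorization_centralBinom_of_two_mul_self_lt_three_mul hn h2 (by omega), pow_zero]
    · simp only [f]
      rw [factorization_eq_zero_of_not_prime n.centralBinom hpp, pow_zero]
  have hfle : ∀ p, f p ≤ 2 * n := fun p => pow_factorization_choose_le (by omega)
  have h1 : centralBinom n ≤ ∏ p ∈ T ∪ S, f p := by
    rw [← n.prod_pow_factorization_centralBinom]
    refine le_of_eq_of_le
      (Finset.prod_subset (Finset.inter_subset_right (s₁ := T ∪ S)) fun p hp hnot =>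
        hsupp p hp fun h => hnot (Finset.mem_inter.2 ⟨h, hp⟩)).symm ?_
    refine Finset.prod_le_prod_of_subset_of_one_le' Finset.inter_subset_left fun p hp _ => ?_
    rcases Nat.eq_zero_or_pos p with rfl | hpos
    · exact le_of_eq (by simp [f])
    · exact Nat.one_le_pow _ _ hpos
  have hdisj : Disjoint T S := by
    rw [Finset.disjoint_left]
    intro p hp hp'
    have h2 := hS' p hp'
    have h3 := Finset.mem_range.1 (Finset.mem_filter.1 hp).1
    omega
  rw [Finset.prod_union hdisj, ← Finset.prod_filter_mul_prod_filter_not T (· ≤ sqrt (2 * n))] at h1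
  have hA : ∏ p ∈ T.filter (· ≤ sqrt (2 * n)), f p ≤ (2 * n) ^ sqrt (2 * n) := by
    refine (Finset.prod_le_prod' fun p _ => hfle p).trans ?_
    rw [Finset.prod_const]
    refine Nat.pow_le_pow_right (by omega) ?_
    refine (Finset.card_le_card (t := Finset.Icc 1 (sqrt (2 * n))) fun x hx => ?_).trans (by simp)
    obtain ⟨h2, h3⟩ := Finset.mem_filter.1 hx
    exact Finset.mem_Icc.2 ⟨(Finset.mem_filter.1 h2).2.one_lt.le, h3⟩
  have hB : ∏ p ∈ T.filter (fun p => ¬ p ≤ sqrt (2 * n)), f p ≤ 4 ^ (2 * n / 3) := by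
    refine le_trans ?_ (primorial_le_four_pow (2 * n / 3))
    refine (Finset.prod_le_prod' fun p hp => (?_ : f p ≤ p)).trans ?_
    · obtain ⟨h2, h3⟩ := Finset.mem_filter.1 hp
      refine (Nat.pow_le_pow_right (Finset.mem_filter.1 h2).2.pos ?_).trans (pow_one p).le
      exact Nat.factorization_choose_le_one (sqrt_lt'.mp <| not_le.1 h3)
    refine Finset.prod_le_prod_of_subset_of_one_le' (Finset.filter_subset _ _) ?_
    exact fun p hp _ => (Finset.mem_filter.1 hp).2.one_lt.le
  have hC : ∏ p ∈ S, f p ≤ (2 * n) ^ S.card := (Finset.prod_le_prod' fun p _ => hfle p).trans (by rw [Finset.prod_const])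
  calc centralBinom n ≤ _ := h1
    _ ≤ (2 * n) ^ sqrt (2 * n) * 4 ^ (2 * n / 3) * (2 * n) ^ S.card :=
        Nat.mul_le_mul (Nat.mul_le_mul hA hB) hC
    _ = _ := by rw [pow_add]; ring

theorem exists_primes_large {n : ℕ} (hn : 1152 ≤ n) :
    ∃ p q : ℕ, p.Prime ∧ q.Prime ∧ n < p ∧ p + 3 ≤ q ∧ q ≤ 2 * n := by
  classical
  by_contra hno
  push Not at hno
  let S := (Finset.Ioc n (2 * n)).filter Nat.Prime
  have hcard : S.card ≤ 2 := by
    rcases S.eq_empty_or_nonempty with e | hne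
    · rw [e]; simp
    · set a := S.min' hne with ha
      obtain ⟨haI, hap⟩ := Finset.mem_filter.1 (S.min'_mem hne)
      rw [← ha] at haI hap
      refine (Finset.card_le_card (t := {a, a + 2}) fun b hb => ?_).trans Finset.card_le_two
      obtain ⟨hbI, hbp⟩ := Finset.mem_filter.1 hb
      have hle : a ≤ b := S.min'_le b hb
      obtain ⟨hn1, -⟩ := Finset.mem_Ioc.1 haI
      obtain ⟨-, hb2⟩ := Finset.mem_Ioc.1 hbI
      have h3 : ¬ a + 3 ≤ b := fun h => absurd hb2 (not_le.2 (hno a b hap hbp hn1 h))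
      have h4 : b ≠ a + 1 := by
        intro e
        rcases hap.eq_two_or_odd with h | h <;> rcases hbp.eq_two_or_odd with h' | h' <;> omega
      rcases (show b = a ∨ b = a + 2 by omega) with rfl | rfl <;> simp
  have h1 := centralBinom_le n (by omega) S
    (fun p hp h h' => Finset.mem_filter.2 ⟨Finset.mem_Ioc.2 ⟨h, h'⟩, hp⟩)
    (fun p hp => (Finset.mem_Ioc.1 (Finset.mem_filter.1 hp).1).1)
  have h2 : centralBinom n ≤ (2 * n) ^ (sqrt (2 * n) + 2) * 4 ^ (2 * n / 3) :=
    h1.trans (Nat.mul_le_mul_right _ (Nat.pow_le_pow_right (by omega) (by omega)))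
  have h3 := Nat.four_pow_lt_mul_centralBinom n (by omega)
  exact absurd ((Nat.mul_le_mul_left n h2).trans (main_inequality hn)) (not_le.2 h3)

/-- The primes used for the alternating group of degree `m`. -/
theorem exists_primes {m : ℕ} (hm : 5 ≤ m) :
    ∃ p q : ℕ, p.Prime ∧ q.Prime ∧ p < q ∧ q ≤ m ∧ m ≤ 2 * p ∧
      (m < 2 * p ∨ q + 3 ≤ m ∨ (p = 3 ∧ q = 5 ∧ m = 6)) ∧
      (p + 3 ≤ q ∨ (p = 3 ∧ q = 5) ∨ (p = 5 ∧ q = 7) ∨ (p = 11 ∧ q = 13)) := by
  rcases lt_or_ge m 2305 with hlt | hge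
  · have mk : ∀ p q : ℕ, p.Prime → q.Prime → p < q → q ≤ m → m < 2 * p →
        (p + 3 ≤ q ∨ (p = 3 ∧ q = 5) ∨ (p = 5 ∧ q = 7) ∨ (p = 11 ∧ q = 13)) →
        ∃ p q : ℕ, p.Prime ∧ q.Prime ∧ p < q ∧ q ≤ m ∧ m ≤ 2 * p ∧
          (m < 2 * p ∨ q + 3 ≤ m ∨ (p = 3 ∧ q = 5 ∧ m = 6)) ∧
          (p + 3 ≤ q ∨ (p = 3 ∧ q = 5) ∨ (p = 5 ∧ q = 7) ∨ (p = 11 ∧ q = 13)) :=
      fun p q hp hq h1 h2 h3 h4 => ⟨p, q, hp, hq, h1, h2, h3.le, Or.inl h3, h4⟩
    by_cases h : m < 7
    · exact ⟨3, 5, by norm_num, by norm_num, by norm_num, by omega, by omega, by omega, Or.inr (Or.inl ⟨rfl, rfl⟩)⟩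
    by_cases h : m < 11
    · exact ⟨5, 7, by norm_num, by norm_num, by norm_num, by omega, by omega, by omega,
        Or.inr (Or.inr (Or.inl ⟨rfl, rfl⟩))⟩
    by_cases h : m < 14
    · exact mk 7 11 (by norm_num) (by norm_num) (by norm_num) (by omega) (by omega) (by norm_num)
    by_cases h : m < 17
    · exact mk 11 13 (by norm_num) (by norm_num) (by norm_num) (by omega) (by omega) (by norm_num)
    by_cases h : m < 26
    · exact mk 13 17 (by norm_num) (by norm_num) (by norm_num) (by omega) (by omega) (by norm_num)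
    by_cases h : m < 38
    · exact mk 19 23 (by norm_num) (by norm_num) (by norm_num) (by omega) (by omega) (by norm_num)
    by_cases h : m < 62
    · exact mk 31 37 (by norm_num) (by norm_num) (by norm_num) (by omega) (by omega) (by norm_num)
    by_cases h : m < 106
    · exact mk 53 61 (by norm_num) (by norm_num) (by norm_num) (by omega) (by omega) (by norm_num)
    by_cases h : m < 194
    · exact mk 97 103 (by norm_num) (by norm_num) (by norm_num) (by omega) (by omega) (by norm_num)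
    by_cases h : m < 362
    · exact mk 181 193 (by norm_num) (by norm_num) (by norm_num) (by omega) (by omega) (by norm_num)
    by_cases h : m < 706
    · exact mk 353 359 (by norm_num) (by norm_num) (by norm_num) (by omega) (by omega) (by norm_num)
    by_cases h : m < 1382
    · exact mk 691 701 (by norm_num) (by norm_num) (by norm_num) (by omega) (by omega) (by norm_num)
    exact mk 1373 1381 (by norm_num) (by norm_num) (by norm_num) (by omega) (by omega) (by norm_num)
  · obtain ⟨p, q, hp, hq, h1, h2, h3⟩ := exists_primes_large (n := (m + 1) / 2) (by omega)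
    have h4 : q ≤ m := by
      by_contra hc
      rcases hq.eq_two_or_odd with h | h <;> omega
    exact ⟨p, q, hp, hq, by omega, h4, by omega, Or.inl (by omega), Or.inl h2⟩

end CfsgLib.AltTwoPrimes
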