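import Mathlib
import Cfsg.Agent.AltTwoPrimes.Primes
import Cfsg.Agent.AltTwoPrimes.Special

/-!
Two elements of large prime order generate an alternating group.
-/

set_option autoImplicit false
set_option maxHeartbeats 1000000

namespace CfsgLib.AltTwoPrimes

open MulAction Equiv Equiv.Perm CfsgLib.Jordan
open scoped Pointwise

variable {α : Type*} [Fintype α] [DecidableEq α]

theorem order_thirty_false {K : Subgroup (Perm α)} (hα : Fintype.card α = 6) (h30 : Nat.card K = 30) : False := by
  classical
  haveI : Fact (Nat.Prime 5) := ⟨by norm_num⟩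
  haveI : Fact (Nat.Prime 3) := ⟨by norm_num⟩
  have hno : ∀ x y : K, orderOf x = 3 → orderOf y = 5 → ¬ Commute x y := by
    intro x y hx hy hc
    have hy' : orderOf (y : Perm α) = 5 := by rw [Subgroup.orderOf_coe, hy]
    have hyc : (y : Perm α).IsCycle := isCycle_of_prime_order' (by rw [hy']; norm_num) (by rw [hy', hα]; norm_num)
    have hys : (y : Perm α).support.card = 5 := by rw [← hyc.orderOf, hy']
    have hfix : ∀ z ∉ (y : Perm α).support, (x : Perm α) z = z := by
      intro z hz
      have h1 : (y : Perm α).supportᶜ.card = 1 := by rw [Finset.card_compl, hys, hα]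
      obtain ⟨w, hw⟩ := Finset.card_eq_one.1 h1
      have h2 : (x : Perm α) z ∉ (y : Perm α).support := by
        rw [Perm.notMem_support] at hz ⊢
        rw [← Perm.mul_apply, ← (show (x : Perm α) * (y : Perm α) = (y : Perm α) * (x : Perm α) from (hc.map K.subtype).eq),
          Perm.mul_apply]
        exact congrArg _ hz
      have h3 : z = w := Finset.mem_singleton.1 (hw ▸ Finset.mem_compl.2 hz)
      have h4 : (x : Perm α) z = w := Finset.mem_singleton.1 (hw ▸ Finset.mem_compl.2 h2)
      rw [h4, h3]
    obtain ⟨k, hk⟩ := mem_zpowers_of_commute hyc (hc.map K.subtype) hfix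
    replace hk : (y : Perm α) ^ k = (x : Perm α) := hk
    have h5 : x ^ 5 = 1 := Subtype.ext (by
      rw [SubgroupClass.coe_pow, ← hk, ← zpow_natCast, ← zpow_mul, mul_comm, zpow_mul, zpow_natCast, ← hy',
        pow_orderOf_eq_one, one_zpow]
      rfl)
    have := orderOf_dvd_of_pow_eq_one h5
    rw [hx] at this
    norm_num at this
  have h25 : ¬ 5 ^ 2 ∣ Nat.card K := by rw [h30]; norm_num
  have h9 : ¬ 3 ^ 2 ∣ Nat.card K := by rw [h30]; norm_num
  have c5 : ∀ P : Sylow 5 K, Nat.card P = 5 := fun P => by
    rw [P.card_eq_multiplicity, h30, show (30 : ℕ) = 5 * 6 by norm_num, Nat.factorization_mul (by norm_num) (by norm_num)]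
    simp [Nat.Prime.factorization (by norm_num : Nat.Prime 5), Nat.factorization_eq_zero_of_not_dvd (by norm_num : ¬ 5 ∣ 6)]
  have c3 : ∀ P : Sylow 3 K, Nat.card P = 3 := fun P => by
    rw [P.card_eq_multiplicity, h30, show (30 : ℕ) = 3 * 10 by norm_num, Nat.factorization_mul (by norm_num) (by norm_num)]
    simp [Nat.Prime.factorization (by norm_num : Nat.Prime 3), Nat.factorization_eq_zero_of_not_dvd (by norm_num : ¬ 3 ∣ 10)]
  obtain ⟨x, hx⟩ := exists_prime_orderOf_dvd_card' (G := K) 3 (by rw [h30]; norm_num)
  obtain ⟨y, hy⟩ := exists_prime_orderOf_dvd_card' (G := K) 5 (by rw [h30]; norm_num)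
  obtain ⟨P, hP⟩ := exists_sylow_zpowers hy h25
  obtain ⟨Q, hQ⟩ := exists_sylow_zpowers hx h9
  have n5 : Nat.card (Sylow 5 K) ≠ 1 := fun e => by
    haveI := (Nat.card_eq_one_iff_unique.1 e).1
    have hn : (P : Subgroup K).Normal := Sylow.normal_of_subsingleton P
    obtain ⟨-, h2, -⟩ := conj_cases hy (x := x) (by rw [← hP]; exact hn.conj_mem y (hP ▸ Subgroup.mem_zpowers y) x)
    exact hno x y hx hy (h2 3 (by norm_num) (by rw [← hx, pow_orderOf_eq_one]; exact Commute.one_left _))
  have n3 : Nat.card (Sylow 3 K) ≠ 1 := fun e => by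
    haveI := (Nat.card_eq_one_iff_unique.1 e).1
    have hn : (Q : Subgroup K).Normal := Sylow.normal_of_subsingleton Q
    obtain ⟨-, h2, -⟩ := conj_cases hx (x := y) (by rw [← hQ]; exact hn.conj_mem x (hQ ▸ Subgroup.mem_zpowers x) y)
    exact hno x y hx hy (h2 5 (by norm_num) (by rw [← hy, pow_orderOf_eq_one]; exact Commute.one_left _)).symm
  have e5 := mul_card_le_card_prime c5
  have e3 := mul_card_le_card_prime c3
  have m5 := card_sylow_modEq_one 5 K
  have m3 := card_sylow_modEq_one 3 K
  have d3 : Nat.card (Sylow 3 K) ∣ 10 := by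
    have h1 := Sylow.card_dvd_index Q
    have h2 := (Q : Subgroup K).card_mul_index
    rw [show Nat.card (Q : Subgroup K) = 3 from c3 Q, h30] at h2
    rwa [show (Q : Subgroup K).index = 10 by omega] at h1
  have h3' : Nat.card (Sylow 3 K) = 10 := by
    have := Nat.le_of_dvd (by norm_num) d3
    unfold Nat.ModEq at m3
    generalize Nat.card (Sylow 3 K) = n at *
    interval_cases n <;> omega
  have hle : Nat.card {z : K // orderOf z = 5} + Nat.card {z : K // orderOf z = 3} ≤ Nat.card K := by
    rw [Nat.card_eq_fintype_card, Nat.card_eq_fintype_card, Fintype.card_subtype, Fintype.card_subtype,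
      ← Finset.card_union_of_disjoint (Finset.disjoint_left.2 fun z h1 h2 => by
        simp only [Finset.mem_filter] at h1 h2; omega), Nat.card_eq_fintype_card]
    exact Finset.card_le_univ _
  unfold Nat.ModEq at m5
  rw [h30] at hle
  have : 6 ≤ Nat.card (Sylow 5 K) := by omega
  omega

/-- Subgroups of index six in the alternating group of degree six. -/
theorem iso_five {K : Subgroup (Perm α)} (hα : Fintype.card α = 6) (hKA : K ≤ alternatingGroup α)
    (h60 : Nat.card K = 60) : Nonempty (K ≃* alternatingGroup (Fin 5)) := by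
  classical
  haveI : Nontrivial α := Fintype.one_lt_card_iff_nontrivial.1 (by omega)
  haveI hsimple : IsSimpleGroup (alternatingGroup α) :=
    alternatingGroup.isSimpleGroup (by rw [Nat.card_eq_fintype_card]; omega)
  have hA : Nat.card (alternatingGroup α) = 360 := by
    rw [nat_card_alternatingGroup, Nat.card_eq_fintype_card, hα]
    rfl
  set K' := K.subgroupOf (alternatingGroup α) with hK'
  let e0 : K' ≃* K := Subgroup.subgroupOfEquivOfLe hKA
  have hidx : K'.index = 6 := by
    have h := K'.card_mul_index
    rw [hA, Nat.card_congr e0.toEquiv, h60] at h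
    omega
  let X := alternatingGroup α ⧸ K'
  haveI : Fintype X := Fintype.ofFinite X
  have hX : Fintype.card X = 6 := by rw [← Nat.card_eq_fintype_card, ← Subgroup.index_eq_card, hidx]
  haveI : Nontrivial X := Fintype.one_lt_card_iff_nontrivial.1 (by omega)
  let φ : alternatingGroup α →* Perm X := MulAction.toPermHom (alternatingGroup α) X
  have hinj : Function.Injective φ := by
    rw [← MonoidHom.ker_eq_bot_iff]
    rcases hsimple.eq_bot_or_eq_top_of_normal φ.ker inferInstance with h | h
    · exact h
    · exfalso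
      have hle : (φ.ker : Subgroup _) ≤ K' := by
        change (MulAction.toPermHom (alternatingGroup α) (alternatingGroup α ⧸ K')).ker ≤ K'
        rw [← Subgroup.normalCore_eq_ker]
        exact K'.normalCore_le
      rw [h, top_le_iff] at hle
      rw [hle, Subgroup.index_top] at hidx
      norm_num at hidx
  have hrange : φ.range = alternatingGroup X := by
    refine eq_alternatingGroup_of_index_eq_two ?_
    have h := φ.range.card_mul_index
    rw [← Nat.card_congr (MonoidHom.ofInjective hinj).toEquiv, hA, Nat.card_perm, Nat.card_eq_fintype_card, hX] at h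
    change 360 * _ = 720 at h
    omega
  let pt : X := ((1 : alternatingGroup α) : alternatingGroup α ⧸ K')
  let s : Finset X := Finset.univ.erase pt
  let ψ := alternatingGroup.ofSubtype s
  have hψ : Function.Injective ψ := alternatingGroup.ofSubtype_injective
  have hs : Fintype.card s = 5 := by rw [Fintype.card_coe]; simp [s, hX]
  haveI : Nontrivial s := Fintype.one_lt_card_iff_nontrivial.1 (by omega)
  let χ : K' →* Perm X := φ.comp K'.subtype
  have hχ : Function.Injective χ := hinj.comp K'.subtype_injective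
  have hpt : ∀ k : K', χ k pt = pt := fun k => by
    change ((k : alternatingGroup α) • pt : X) = pt
    rw [show pt = ((1 : alternatingGroup α) : alternatingGroup α ⧸ K') from rfl, MulAction.Quotient.smul_coe,
      QuotientGroup.eq]
    simp
  let ω : alternatingGroup s →* Perm X := (alternatingGroup X).subtype.comp ψ
  have hω : Function.Injective ω := (alternatingGroup X).subtype_injective.comp hψ
  have hle : χ.range ≤ ω.range := by
    rintro _ ⟨k, rfl⟩
    have hmemA : χ k ∈ alternatingGroup X := hrange ▸ ⟨(k : alternatingGroup α), rfl⟩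
    have hp : ∀ z, χ k z ∈ s ↔ z ∈ s := fun z => by
      simp only [s, Finset.mem_erase, Finset.mem_univ, and_true, ne_eq]
      rw [not_iff_not]
      constructor
      · intro h; exact (χ k).injective (h.trans (hpt k).symm)
      · intro h; rw [h, hpt]
    refine ⟨⟨(χ k).subtypePerm hp, ?_⟩, ?_⟩
    · rw [mem_alternatingGroup]
      convert (sign_subtypePerm (χ k) hp fun z hz => ?_).trans (mem_alternatingGroup.1 hmemA) using 4
      simp only [s, Finset.mem_erase, Finset.mem_univ, and_true, ne_eq]
      intro e
      exact hz (by rw [e, hpt])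
    · refine Perm.ofSubtype_subtypePerm hp ?_
      intro z hz
      simp only [s, Finset.mem_erase, Finset.mem_univ, and_true, ne_eq]
      intro e
      exact hz (by rw [e, hpt])
  have heq : χ.range = ω.range := by
    refine Subgroup.eq_of_le_of_card_ge hle (le_of_eq ?_)
    rw [← Nat.card_congr (MonoidHom.ofInjective hω).toEquiv, ← Nat.card_congr (MonoidHom.ofInjective hχ).toEquiv,
      nat_card_alternatingGroup, Nat.card_eq_fintype_card (α := s), hs, Nat.card_congr e0.toEquiv, h60]
    rfl
  exact ⟨(((e0.symm.trans (MonoidHom.ofInjective hχ)).trans (MulEquiv.subgroupCongr heq)).trans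
    (MonoidHom.ofInjective hω).symm).trans (Equiv.altCongrHom (Fintype.equivFinOfCardEq hs))⟩

/-- The group generated by elements of large prime order. -/
theorem closure_iso (p q : ℕ) (hp : p.Prime) (hq : q.Prime) (hpq : p < q) {m : ℕ} (hm : Fintype.card α = m)
    (hm' : m ≤ 2 * p) (h1 : m < 2 * p ∨ q + 3 ≤ m ∨ (p = 3 ∧ q = 5 ∧ m = 6))
    (h2 : p + 3 ≤ q ∨ (p = 3 ∧ q = 5) ∨ (p = 5 ∧ q = 7) ∨ (p = 11 ∧ q = 13))
    {g h : Perm α} (hg : orderOf g = p) (hh : orderOf h = q) (hgA : g ∈ alternatingGroup α)
    (hhA : h ∈ alternatingGroup α) :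
    ∃ d : ℕ, 5 ≤ d ∧ Nonempty (Subgroup.closure ({g, h} : Set (Perm α)) ≃* alternatingGroup (Fin d)) := by
  classical
  have h3p : 3 ≤ p := by
    rcases hp.eq_two_or_odd with rfl | h
    · exfalso
      have := hp.two_le
      obtain ⟨c, hc⟩ := cycleType_prime_order (σ := h) (by rw [hh]; exact hq)
      have h3 := h.support.card_le_univ
      rw [← sum_cycleType, hc, Multiset.sum_replicate, smul_eq_mul, hh, hm] at h3
      have : q ≤ (c + 1) * q := Nat.le_mul_of_pos_left q (Nat.succ_pos c)
      omega
    · have := hp.two_le; omega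
  have hhc : h.IsCycle := isCycle_of_prime_order' (by rw [hh]; exact hq) (by rw [hh, hm]; omega)
  have hhs : h.support.card = q := by rw [← hhc.orderOf, hh]
  set D : Finset α := g.support ∪ h.support with hD
  have hgD : ∀ z, g z ∈ D ↔ z ∈ D := fun z => by
    simp only [hD, Finset.mem_union, Perm.mem_support, ne_eq]
    constructor <;> intro hz <;> by_contra hc <;> push Not at hc <;> obtain ⟨c1, c2⟩ := hc
    · rw [c1] at hz; tauto
    · have := g.injective c1; rw [this] at c2; tauto
  have hhD : ∀ z, h z ∈ D ↔ z ∈ D := fun z => by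
    simp only [hD, Finset.mem_union, Perm.mem_support, ne_eq]
    constructor <;> intro hz <;> by_contra hc <;> push Not at hc <;> obtain ⟨c1, c2⟩ := hc
    · rw [c2] at hz; tauto
    · have := h.injective c2; rw [this] at c1; tauto
  let β := {z // z ∈ D}
  let g' : Perm β := g.subtypePerm hgD
  let h' : Perm β := h.subtypePerm hhD
  have eg : ofSubtype g' = g := Perm.ofSubtype_subtypePerm hgD fun z hz =>
    Finset.mem_union_left _ (Perm.mem_support.2 hz)
  have eh : ofSubtype h' = h := Perm.ofSubtype_subtypePerm hhD fun z hz =>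
    Finset.mem_union_right _ (Perm.mem_support.2 hz)
  set K : Subgroup (Perm β) := Subgroup.closure {g', h'} with hK
  have eK : K.map ofSubtype = Subgroup.closure {g, h} := by
    rw [hK, MonoidHom.map_closure, Set.image_pair, eg, eh]
  suffices hmain : ∃ d : ℕ, 5 ≤ d ∧ Nonempty (K ≃* alternatingGroup (Fin d)) by
    obtain ⟨d, hd, ⟨e⟩⟩ := hmain
    exact ⟨d, hd, ⟨((MulEquiv.subgroupCongr eK.symm).trans
      (K.equivMapOfInjective ofSubtype Perm.ofSubtype_injective).symm).trans e⟩⟩
  have hgK : g' ∈ K := Subgroup.subset_closure (Set.mem_insert _ _)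
  have hhK : h' ∈ K := Subgroup.subset_closure (Set.mem_insert_of_mem _ rfl)
  have hKA : K ≤ alternatingGroup β := by
    rw [hK, Subgroup.closure_le]
    rintro _ (rfl | rfl) <;> rw [SetLike.mem_coe, mem_alternatingGroup, ← sign_ofSubtype]
    · rw [eg]; exact mem_alternatingGroup.1 hgA
    · rw [eh]; exact mem_alternatingGroup.1 hhA
  have hord' : orderOf h' = q := by rw [← hh, ← eh, orderOf_injective _ Perm.ofSubtype_injective]
  have hgord' : orderOf g' = p := by rw [← hg, ← eg, orderOf_injective _ Perm.ofSubtype_injective]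
  set d := Fintype.card β with hd
  have hdD : d = D.card := Fintype.card_coe D
  have hdm : d ≤ m := by rw [hdD, ← hm]; exact D.card_le_univ
  have hdq : q ≤ d := by rw [hdD, ← hhs]; exact Finset.card_le_card Finset.subset_union_right
  have hh'c : h'.IsCycle := isCycle_of_prime_order' (by rw [hord']; exact hq) (by rw [hord', ← hd]; omega)
  have hh's : h'.support.card = q := by rw [← hh'c.orderOf, hord']
  have hmeet : ∀ z ∈ g.support, ∃ i : ℕ, (g ^ i) z ∈ h.support := by
    intro z hz
    by_contra hno
    push Not at hno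
    let O : Finset α := (Finset.range p).image fun l => (g ^ l) z
    have hOc : O.card = p := by
      rw [Finset.card_image_of_injOn, Finset.card_range]
      intro l hl l' hl' e
      rw [Finset.coe_range, Set.mem_Iio] at hl hl'
      replace e : (g ^ l) z = (g ^ l') z := e
      by_contra hne
      have key : ∀ l l' : ℕ, l < l' → l' < p → (g ^ l) z = (g ^ l') z → False := by
        intro l l' hlt h5' e
        have h1 : (g ^ (l' - l)) z = z := by
          apply (g ^ l).injective
          rw [← Perm.mul_apply, ← pow_add, Nat.add_sub_cancel' hlt.le, e]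
        obtain ⟨c, hc⟩ := exists_pow_eq_self_of_coprime (x := g) (n := l' - l) (by
          rw [hg]
          exact (hp.coprime_iff_not_dvd.2 fun hd => by
            have := Nat.le_of_dvd (by omega) hd
            omega).symm)
        refine Perm.mem_support.1 hz ?_
        conv_lhs => rw [← hc]
        exact Perm.pow_apply_eq_self_of_apply_eq_self h1 c
      rcases Nat.lt_or_ge l l' with h | h
      · exact key l l' h hl' e
      · exact key l' l (lt_of_le_of_ne h (Ne.symm hne)) hl e.symm
    have hdisj : Disjoint O h.support := Finset.disjoint_left.2 fun w hw => by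
      obtain ⟨l, -, rfl⟩ := Finset.mem_image.1 hw
      exact hno l
    have := (O ∪ h.support).card_le_univ
    rw [Finset.card_union_of_disjoint hdisj, hOc, hhs, hm] at this
    omega
  have hval : ∀ (i : ℕ) (z : β), ((g' ^ i) z : α) = (g ^ i) (z : α) := fun i z => by
    induction i with
    | zero => rfl
    | succ i ih => rw [pow_succ', pow_succ', Perm.mul_apply, Perm.mul_apply, ← ih]; rfl
  obtain ⟨w₀, hw₀⟩ : h'.support.Nonempty := Finset.card_pos.1 (by omega)
  have hsupp' : ∀ z : β, (z : α) ∈ h.support → z ∈ h'.support := fun z hz => by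
    rw [Perm.mem_support] at hz ⊢
    exact fun e => hz (congrArg Subtype.val e)
  haveI htr : IsPretransitive K β := by
    have hto : ∀ z : β, ∃ k : K, k • z = w₀ := by
      intro z
      obtain ⟨i, hi⟩ : ∃ i : ℕ, ((g' ^ i) z : α) ∈ h.support := by
        rcases Finset.mem_union.1 z.2 with hz | hz
        · obtain ⟨i, hi⟩ := hmeet z hz
          exact ⟨i, by rw [hval]; exact hi⟩
        · exact ⟨0, hz⟩
      obtain ⟨j, hj⟩ := hh'c.exists_pow_eq (Perm.mem_support.1 (hsupp' _ hi)) (Perm.mem_support.1 hw₀)
      exact ⟨⟨h' ^ j * g' ^ i, K.mul_mem (K.pow_mem hhK j) (K.pow_mem hgK i)⟩, hj⟩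
    refine ⟨fun z z' => ?_⟩
    obtain ⟨k, hk⟩ := hto z
    obtain ⟨k', hk'⟩ := hto z'
    exact ⟨k'⁻¹ * k, by rw [mul_smul, hk, ← hk', inv_smul_smul]⟩
  have hfixed : h' ≠ 1 := hh'c.ne_one
  haveI hprim : IsPreprimitive K β := by
    refine { isTrivialBlock_of_isBlock := fun {B} hB => ?_ }
    by_contra hnt
    obtain ⟨hns, hnu⟩ := not_or.1 hnt
    rw [Set.not_subsingleton_iff] at hns
    obtain ⟨b₀, hb₀⟩ := hns.nonempty
    have hmul := hB.ncard_block_mul_ncard_orbit_eq hns.nonempty
    rw [Nat.card_eq_fintype_card, ← hd] at hmul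
    have hb2 : 2 ≤ B.ncard := Set.one_lt_ncard_iff_nontrivial.2 hns
    have hbd : B.ncard < d := by
      rw [hd, ← Nat.card_eq_fintype_card, ← Set.ncard_univ]
      exact Set.ncard_lt_ncard (Set.ssubset_univ_iff.2 hnu)
    set c := (orbit K B).ncard with hc
    have hc2 : 2 ≤ c := by
      by_contra hlt
      rcases (show c = 0 ∨ c = 1 by omega) with e | e <;> rw [e] at hmul <;> omega
    have hbq : B.ncard < q := by nlinarith
    have hcq : c < q := by nlinarith
    obtain ⟨k, hk⟩ := MulAction.exists_smul_eq K b₀ w₀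
    set B' : Set β := k • B with hB'
    have hw₀B : w₀ ∈ B' := hk ▸ Set.smul_mem_smul_set hb₀
    let η : K := ⟨h', hhK⟩
    have hη : orderOf η = q := by rw [← Subgroup.orderOf_coe]; exact hord'
    have hstab : η • B' = B' := by
      let Z : Subgroup K := Subgroup.zpowers η
      haveI := Fintype.ofFinite Z
      haveI := Fintype.ofFinite (orbit Z B')
      have hos := MulAction.card_orbit_mul_card_stabilizer_eq_card_group Z B'
      rw [← Nat.card_eq_fintype_card, ← Nat.card_eq_fintype_card, ← Nat.card_eq_fintype_card,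
        Nat.card_zpowers, hη] at hos
      have hle : Nat.card (orbit Z B') ≤ c := by
        rw [hc, ← Nat.card_coe_set_eq]
        refine Nat.card_mono (Set.toFinite _) ?_
        rintro _ ⟨z, rfl⟩
        exact ⟨(z : K) * k, by simp only [hB', mul_smul]; rfl⟩
      have h1 : Nat.card (orbit Z B') = 1 := (hq.eq_one_or_self_of_dvd _ ⟨_, hos.symm⟩).resolve_right (by omega)
      obtain ⟨hsub, -⟩ := Nat.card_eq_one_iff_unique.1 h1
      exact congrArg Subtype.val (hsub.elim ⟨η • B', ⟨η, Subgroup.mem_zpowers η⟩, rfl⟩ ⟨B', mem_orbit_self B'⟩)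
    have hsub : (h'.support : Set β) ⊆ B' := by
      intro z hz
      obtain ⟨j, rfl⟩ := hh'c.exists_pow_eq (Perm.mem_support.1 hw₀) (Perm.mem_support.1 hz)
      have hpw : ∀ j : ℕ, η ^ j • B' = B' := fun j => by
        induction j with
        | zero => rw [pow_zero, one_smul]
        | succ j ih => rw [pow_succ, mul_smul, hstab, ih]
      have h2 := Set.smul_mem_smul_set (a := η ^ j) hw₀B
      rw [hpw j] at h2
      exact h2
    have h3 := Set.ncard_le_ncard hsub
    rw [Set.ncard_coe_finset, hh's, hB', Set.ncard_smul_set] at h3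
    omega
  have hfin : alternatingGroup β ≤ K → ∃ d : ℕ, 5 ≤ d ∧ Nonempty (K ≃* alternatingGroup (Fin d)) := fun hle =>
    ⟨d, by omega, ⟨(MulEquiv.subgroupCongr (le_antisymm hKA hle)).trans
      (Equiv.altCongrHom (Fintype.equivFinOfCardEq hd.symm))⟩⟩
  by_cases hA1 : q + 3 ≤ d
  · exact hfin (alternatingGroup_le_of_prime_cycle K hprim hq (by rw [← hd]; exact hA1) hh'c hh's hhK)
  by_cases hgc : g'.IsCycle
  · have hg's : g'.support.card = p := by rw [← hgc.orderOf, hgord']
    by_cases hA2 : p + 3 ≤ d
    · exact hfin (alternatingGroup_le_of_prime_cycle K hprim hp (by rw [← hd]; exact hA2) hgc hg's hgK)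
    rcases h2 with h2 | ⟨rfl, rfl⟩ | ⟨rfl, rfl⟩ | ⟨rfl, rfl⟩
    · omega
    · exact hfin (alternatingGroup_le_of_isPreprimitive_of_isThreeCycle_mem hprim (g := g')
        (card_support_eq_three_iff.1 hg's) hgK)
    · have h7 : Fintype.card β = 7 := by omega
      exact hfin (degree_seven h7 hKA (three_transitive hprim hp (by omega) hgc hg's hgK)).ge
    · have h13 : Fintype.card β = 13 := by omega
      exact hfin (degree_thirteen h13 hKA hprim (three_transitive hprim hp (by omega) hgc hg's hgK) hgc hg's hgK)
  -- `g` is a product of two cycles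
  have hm2 : ¬ d < 2 * p := fun hlt => hgc (isCycle_of_prime_order' (by rw [hgord']; exact hp) (by rw [hgord', ← hd]; exact hlt))
  rcases h1 with h1 | h1 | ⟨rfl, rfl, rfl⟩
  · omega
  · omega
  have h6 : Fintype.card β = 6 := by omega
  haveI : Nontrivial β := Fintype.one_lt_card_iff_nontrivial.1 (by omega)
  haveI hsimple : IsSimpleGroup (alternatingGroup β) :=
    alternatingGroup.isSimpleGroup (by rw [Nat.card_eq_fintype_card]; omega)
  have hA : Nat.card (alternatingGroup β) = 360 := by
    rw [nat_card_alternatingGroup, Nat.card_eq_fintype_card, h6]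
    rfl
  have h30 : 30 ∣ Nat.card K := by
    have d5 : 5 ∣ Nat.card K := by
      have := orderOf_dvd_natCard (⟨h', hhK⟩ : K)
      rwa [← Subgroup.orderOf_coe, hord'] at this
    have d6 : 6 ∣ Nat.card K := by
      have h := (stabilizer K w₀).card_mul_index
      rw [MulAction.index_stabilizer_of_transitive, Nat.card_eq_fintype_card (α := β), h6] at h
      exact ⟨_, by rw [← h, mul_comm]⟩
    exact Nat.Coprime.mul_dvd_of_dvd_of_dvd (by norm_num : Nat.Coprime 5 6) d5 d6
  set K' := K.subgroupOf (alternatingGroup β) with hK'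
  have hmul := K'.card_mul_index
  rw [hA, Nat.card_congr (Subgroup.subgroupOfEquivOfLe hKA).toEquiv] at hmul
  by_cases htop : K' = ⊤
  · exact hfin (Subgroup.subgroupOf_eq_top.1 htop)
  have hcore : K'.normalCore = ⊥ := by
    rcases hsimple.eq_bot_or_eq_top_of_normal K'.normalCore inferInstance with h | h
    · exact h
    · exact absurd (top_le_iff.1 (h ▸ K'.normalCore_le)) htop
  have hinj : Function.Injective (MulAction.toPermHom (alternatingGroup β) (alternatingGroup β ⧸ K')) := by
    rw [← MonoidHom.ker_eq_bot_iff, ← Subgroup.normalCore_eq_ker, hcore]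
  have hdvd := Subgroup.card_dvd_of_injective _ hinj
  rw [hA, Nat.card_perm, ← Subgroup.index_eq_card] at hdvd
  obtain ⟨c, hc⟩ := h30
  have hi12 : K'.index * c = 12 := by
    rw [hc] at hmul
    have : 30 * (K'.index * c) = 360 := by rw [← hmul]; ring
    omega
  have hi : K'.index = 6 ∨ K'.index = 12 := by
    have hdi : K'.index ∣ 12 := ⟨c, hi12.symm⟩
    have h1 := Nat.le_of_dvd (by norm_num) hdi
    generalize K'.index = k at hdvd hdi h1 ⊢
    interval_cases k <;> first | exact Or.inl rfl | exact Or.inr rfl | (revert hdvd hdi; decide)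
  rcases hi with hi | hi <;> rw [hi] at hmul
  · exact ⟨5, le_rfl, iso_five h6 hKA (by omega)⟩
  · exact (order_thirty_false h6 (K := K) (by omega)).elim

end CfsgLib.AltTwoPrimes
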